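import Cfsg.Agent.U3Four.Rep

/-!
# Extensions of `SU₃(4)` by multiples of its twelve-dimensional module keep the prime graph
-/

set_option autoImplicit false
set_option maxRecDepth 100000

namespace CfsgLib.U3Four

open CfsgLib.Chev Matrix

/-- The same prime graph. -/
def SameGraph (A B : Type*) [Group A] [Group B] : Prop :=
  (∀ p : ℕ, p.Prime → (p ∣ Nat.card A ↔ p ∣ Nat.card B)) ∧
    ∀ p q : ℕ, p.Prime → q.Prime → p ≠ q → ((∃ g : A, orderOf g = p * q) ↔ ∃ g : B, orderOf g = p * q)

universe u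

variable {F : Type u} [Field F] [Fintype F]

theorem center_eq_bot (C : CfsgLib.UGeom.Conj F 4) : Subgroup.center (Cfsg.SU 3 F 4) = ⊥ :=
  Subgroup.card_eq_one.1 (by rw [CfsgLib.UGeom.card_center_SU C (by norm_num)]; rfl)

/-- The projective group is the special group. -/
noncomputable def psuEquiv (C : CfsgLib.UGeom.Conj F 4) : Cfsg.PSU 3 F 4 ≃* Cfsg.SU 3 F 4 :=
  (QuotientGroup.quotientMulEquivOfEq (center_eq_bot C)).trans QuotientGroup.quotientBot

theorem card_G : Nat.card G = 62400 := by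
  have h := CfsgLib.UGeom.card_PSU conj (n := 3) (by norm_num)
  rw [← Nat.card_congr (psuEquiv conj).toEquiv]
  norm_num [Finset.prod_range_succ, Nat.even_iff] at h ⊢
  omega

/-- The transport along a field isomorphism. -/
noncomputable def mapSU {K : Type*} [Field K] (σ : F ≃+* K) : Cfsg.SU 3 F 4 ≃* Cfsg.SU 3 K 4 := by
  refine MulEquiv.ofBijective
    (((Matrix.SpecialLinearGroup.map (σ : F →+* K)).comp (Cfsg.SU 3 F 4).subtype).codRestrict _ ?_) ⟨?_, ?_⟩
  · intro g x y
    obtain ⟨x, rfl⟩ : ∃ x' : Fin 3 → F, σ ∘ x' = x := ⟨σ.symm ∘ x, by ext i; simp⟩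
    obtain ⟨y, rfl⟩ : ∃ y' : Fin 3 → F, σ ∘ y' = y := ⟨σ.symm ∘ y, by ext i; simp⟩
    have key : ∀ u v : Fin 3 → F, Cfsg.hermForm 3 K 4 (σ ∘ u) (σ ∘ v) = σ (Cfsg.hermForm 3 F 4 u v) :=
      fun u v => by simp [Cfsg.hermForm, map_sum]
    have hm : ∀ u : Fin 3 → F, (g.1.1.map σ) *ᵥ (σ ∘ u) = σ ∘ (g.1.1 *ᵥ u) := fun u => by
      funext i; exact (RingHom.map_mulVec (σ : F →+* K) g.1.1 u i).symm
    show Cfsg.hermForm 3 K 4 ((g.1.1.map σ) *ᵥ _) ((g.1.1.map σ) *ᵥ _) = _
    rw [hm, hm, key, key]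
    exact congrArg σ (g.2 x y)
  · intro g h e
    have e' : g.1.1.map σ = h.1.1.map σ := congrArg (fun t : Cfsg.SU 3 K 4 => t.1.1) e
    exact Subtype.ext (Subtype.ext (Matrix.map_injective σ.injective e'))
  · intro g
    have hdet : (g.1.1.map σ.symm).det = 1 := by
      have := congrArg σ.symm g.1.2
      rw [map_one, RingEquiv.map_det] at this
      exact this
    refine ⟨⟨⟨g.1.1.map σ.symm, hdet⟩, fun x y => σ.injective ?_⟩, ?_⟩
    · have key : ∀ u v : Fin 3 → F, Cfsg.hermForm 3 K 4 (σ ∘ u) (σ ∘ v) = σ (Cfsg.hermForm 3 F 4 u v) :=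
        fun u v => by simp [Cfsg.hermForm, map_sum]
      have hm : ∀ u : Fin 3 → F, σ ∘ ((g.1.1.map σ.symm) *ᵥ u) = g.1.1 *ᵥ (σ ∘ u) := fun u => by
        funext i
        simp [Matrix.mulVec, dotProduct, map_sum]
      show σ (Cfsg.hermForm 3 F 4 ((g.1.1.map σ.symm) *ᵥ x) ((g.1.1.map σ.symm) *ᵥ y)) = _
      rw [← key, ← key, hm, hm]
      exact g.2 _ _
    · refine Subtype.ext (Subtype.ext ?_)
      show (g.1.1.map σ.symm).map σ = g.1.1
      ext i j
      simp

/-- Multiplication by a matrix, iterated. -/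
def pw (A : M3) : ℕ → M3
  | 0 => 1
  | n + 1 => pw A n * A

theorem mat_pow (g : G) (n : ℕ) : mat (g ^ n) = pw (mat g) n := by
  induction n with
  | zero => rfl
  | succ n ih => rw [pow_succ, mat_mul, ih, pw]

theorem pow_word {w : List (ℕ × ℕ × ℕ × ℕ)} (hw : ∀ p ∈ w, TCond (tvec p) (Q.ofN p.2.2.2)) (n : ℕ) :
    wordEl w ^ n = 1 ↔ pw (wordMat w) n = 1 := by
  rw [← mat_inj.eq_iff, mat_pow, mat_wordEl hw, mat_one]

theorem order13 : orderOf (wordEl wB) = 13 := by
  haveI : Fact (Nat.Prime 13) := ⟨by norm_num⟩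
  refine orderOf_eq_prime ((pow_word (words_ok wB (by simp)) 13).2 (by decide +kernel)) fun h => ?_
  exact absurd ((pow_word (words_ok wB (by simp)) 1).1 (by rw [pow_one, h])) (by decide +kernel)

theorem order_w10 : orderOf (wordEl w10) = 10 := by
  have key : ∀ m < 10, 0 < m → pw (wordMat w10) m ≠ 1 := by decide +kernel
  exact (orderOf_eq_iff (by norm_num)).2 ⟨(pow_word (words_ok w10 (by simp)) 10).2 (by decide +kernel),
    fun m hm h0 h => key m hm h0 ((pow_word (words_ok w10 (by simp)) m).1 h)⟩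

theorem order_w15 : orderOf (wordEl w15) = 15 := by
  have key : ∀ m < 15, 0 < m → pw (wordMat w15) m ≠ 1 := by decide +kernel
  exact (orderOf_eq_iff (by norm_num)).2 ⟨(pow_word (words_ok w15 (by simp)) 15).2 (by decide +kernel),
    fun m hm h0 h => key m hm h0 ((pow_word (words_ok w15 (by simp)) m).1 h)⟩

theorem no_fixed {g : G} (hg : orderOf g = 13) {v : Fin 12 → ZMod 5} (hv : (psi g : M12) *ᵥ v = v) : v = 0 := by
  haveI : Fact (Nat.Prime 13) := ⟨by norm_num⟩
  have key : ∀ x : G, orderOf x = 13 → ∃ P : Sylow 13 G, (P : Subgroup _) = Subgroup.zpowers x := fun x hx => by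
    refine ⟨Sylow.ofCard (Subgroup.zpowers x) ?_, rfl⟩
    rw [Nat.card_zpowers, hx, card_G]
    have h1 : (62400 : ℕ).factorization 13 = 1 := by
      refine le_antisymm ?_ ?_
      · by_contra h
        have : 13 ^ 2 ∣ 62400 := ((Nat.Prime.pow_dvd_iff_le_factorization (by norm_num) (by norm_num)).2 (by omega))
        norm_num at this
      · exact (Nat.Prime.dvd_iff_one_le_factorization (by norm_num) (by norm_num)).1 (by norm_num)
    rw [h1, pow_one]
  obtain ⟨P, hP⟩ := key g hg
  obtain ⟨P', hP'⟩ := key (wordEl wB) order13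
  obtain ⟨c, hc⟩ := MulAction.exists_smul_eq G P P'
  have hmem : c * g * c⁻¹ ∈ Subgroup.zpowers (wordEl wB) := by
    rw [← hP', ← hc, Sylow.coe_subgroup_smul, hP]
    exact Subgroup.smul_mem_pointwise_smul g (MulAut.conj c) _ (Subgroup.mem_zpowers g)
  have hord : orderOf (c * g * c⁻¹) = 13 := by
    rw [← hg]
    exact orderOf_injective (MulAut.conj c).toMonoidHom (MulAut.conj c).injective g
  have hmem' : wordEl wB ∈ Subgroup.zpowers (c * g * c⁻¹) := by
    have he : Subgroup.zpowers (c * g * c⁻¹) = Subgroup.zpowers (wordEl wB) :=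
      Subgroup.eq_of_le_of_card_ge (Subgroup.zpowers_le.2 hmem)
        (by rw [Nat.card_zpowers, Nat.card_zpowers, hord, order13])
    rw [he]; exact Subgroup.mem_zpowers _
  obtain ⟨k, hk⟩ := (isOfFinOrder_of_finite _).mem_powers_iff_mem_zpowers.2 hmem'
  replace hk : (c * g * c⁻¹) ^ k = wordEl wB := hk
  set u := (psi c : M12) *ᵥ v with hu
  have hgk : ∀ j : ℕ, (psi g : M12) ^ j *ᵥ v = v := by
    intro j
    induction j with
    | zero => simp
    | succ j ih => rw [pow_succ, ← mulVec_mulVec, hv, ih]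
  have h1 : decM Data.mB *ᵥ u = u := by
    show ((uB : GL (Fin 12) (ZMod 5)) : M12) *ᵥ u = u
    rw [← psi_gB, ← hk, conj_pow, map_mul, map_mul, Units.val_mul, Units.val_mul, map_pow,
      Units.val_pow_eq_pow_val, hu, mulVec_mulVec, mul_assoc, ← Units.val_mul (psi c⁻¹), ← map_mul,
      inv_mul_cancel, map_one, Units.val_one, mul_one, ← mulVec_mulVec, hgk k]
  have h2 : u = 0 := by
    calc u = (decM Data.r13 * (decM Data.mB - 1)) *ᵥ u := by rw [r13_ok, one_mulVec]
      _ = 0 := by rw [← mulVec_mulVec, sub_mulVec, h1, one_mulVec, sub_self, mulVec_zero]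
  calc v = ((psi c⁻¹ : M12) * (psi c : M12)) *ᵥ v := by
        rw [← Units.val_mul, ← map_mul, inv_mul_cancel, map_one, Units.val_one, one_mulVec]
    _ = 0 := by rw [← mulVec_mulVec, ← hu, h2, mulVec_zero]

theorem primes_G {p : ℕ} (hp : p.Prime) (h : p ∣ 62400) : p = 2 ∨ p = 3 ∨ p = 5 ∨ p = 13 := by
  have h' : p ∣ 2 ^ 6 * (3 * (5 ^ 2 * 13)) := by norm_num; exact h
  rcases (Nat.Prime.dvd_mul hp).1 h' with h' | h'
  · exact Or.inl ((Nat.prime_dvd_prime_iff_eq hp Nat.prime_two).1 (hp.dvd_of_dvd_pow h'))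
  rcases (Nat.Prime.dvd_mul hp).1 h' with h' | h'
  · exact Or.inr (Or.inl ((Nat.prime_dvd_prime_iff_eq hp Nat.prime_three).1 h'))
  rcases (Nat.Prime.dvd_mul hp).1 h' with h' | h'
  · exact Or.inr (Or.inr (Or.inl ((Nat.prime_dvd_prime_iff_eq hp (by norm_num)).1 (hp.dvd_of_dvd_pow h'))))
  · exact Or.inr (Or.inr (Or.inr ((Nat.prime_dvd_prime_iff_eq hp (by norm_num)).1 h')))

/-- The module. -/
abbrev Mod (N : ℕ) : Type := Multiplicative (Fin N → Fin 12 → ZMod 5)

/-- The action on the module. -/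
noncomputable def act (N : ℕ) : G →* MulAut (Mod N) where
  toFun g :=
    { toFun := fun v => Multiplicative.ofAdd fun n => (psi g : M12) *ᵥ v.toAdd n
      invFun := fun v => Multiplicative.ofAdd fun n => (psi g⁻¹ : M12) *ᵥ v.toAdd n
      left_inv := fun v => by
        apply Multiplicative.toAdd.injective
        funext n
        simp only [toAdd_ofAdd, mulVec_mulVec, ← Units.val_mul, ← map_mul, inv_mul_cancel, map_one,
          Units.val_one, one_mulVec]
      right_inv := fun v => by
        apply Multiplicative.toAdd.injective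
        funext n
        simp only [toAdd_ofAdd, mulVec_mulVec, ← Units.val_mul, ← map_mul, mul_inv_cancel, map_one,
          Units.val_one, one_mulVec]
      map_mul' := fun v w => by
        apply Multiplicative.toAdd.injective
        funext n
        simp only [toAdd_ofAdd, toAdd_mul, Pi.add_apply, mulVec_add] }
  map_one' := by
    ext v : 1
    apply Multiplicative.toAdd.injective
    funext n
    simp
  map_mul' g h := by
    ext v : 1
    apply Multiplicative.toAdd.injective
    funext n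
    simp [mulVec_mulVec]

/-- The extension. -/
abbrev Ext (N : ℕ) : Type := Mod N ⋊[act N] G

theorem card_mod (N : ℕ) : Nat.card (Mod N) = 5 ^ (12 * N) := by
  rw [Nat.card_congr Multiplicative.toAdd]
  simp only [Nat.card_eq_fintype_card, Fintype.card_fun, Fintype.card_fin, ZMod.card]
  rw [← pow_mul]

theorem card_ext (N : ℕ) : Nat.card (Ext N) = 5 ^ (12 * N) * 62400 := by
  rw [SemidirectProduct.card, card_mod, card_G]

theorem mod_five {N : ℕ} (v : Mod N) : v ^ 5 = 1 := by
  apply Multiplicative.toAdd.injective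
  funext n i
  exact (by decide : ∀ x : ZMod 5, (5 : ℕ) • x = 0) _

theorem sameGraph (N : ℕ) : SameGraph G (Ext N) := by
  refine ⟨fun p hp => ?_, fun p q hp hq hne => ⟨?_, ?_⟩⟩
  · rw [card_ext, card_G]
    refine ⟨fun h => h.mul_left _, fun h => ?_⟩
    rcases (Nat.Prime.dvd_mul hp).1 h with h | h
    · rw [(Nat.prime_dvd_prime_iff_eq hp Nat.prime_five).1 (hp.dvd_of_dvd_pow h)]; norm_num
    · exact h
  · rintro ⟨g, hg⟩
    exact ⟨SemidirectProduct.inr g, by rw [orderOf_injective _ SemidirectProduct.inr_injective, hg]⟩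
  · rintro ⟨g, hg⟩
    set π : Ext N →* G := SemidirectProduct.rightHom with hπ
    have hker : ∀ x : Ext N, π x = 1 → x ^ 5 = 1 := fun x hx => by
      have : x = SemidirectProduct.inl x.left := SemidirectProduct.ext rfl hx
      rw [this, ← map_pow, mod_five, map_one]
    have h5 : g ^ (orderOf (π g) * 5) = 1 := by
      rw [pow_mul]; exact hker _ (by rw [map_pow, pow_orderOf_eq_one])
    have hdvd : p * q ∣ orderOf (π g) * 5 := hg ▸ orderOf_dvd_of_pow_eq_one h5
    have hdvd' : orderOf (π g) ∣ p * q := hg ▸ orderOf_map_dvd π g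
    -- one prime is five and the other has a fixed vector
    have core : ∀ p q : ℕ, p.Prime → q.Prime → p ≠ q → orderOf g = p * q → orderOf (π g) = p →
        ∃ x : G, orderOf x = p * q := by
      intro p q hp hq hne hg ho
      have hq5 : q = 5 := by
        have h : p * q ∣ p * 5 := by
          rw [← hg]; exact orderOf_dvd_of_pow_eq_one (by rw [← ho]; exact h5)
        exact (Nat.prime_dvd_prime_iff_eq hq Nat.prime_five).1 (Nat.dvd_of_mul_dvd_mul_left hp.pos h)
      subst hq5
      set y := g ^ 5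
      set v := g ^ p
      have hv : π v = 1 := by rw [map_pow, ← ho, pow_orderOf_eq_one]
      have hv1 : v ≠ 1 := fun h => by
        have := orderOf_dvd_of_pow_eq_one h
        rw [hg] at this
        have := Nat.le_of_dvd hp.pos this
        have := hp.pos
        omega
      have hyo : orderOf (π y) = p := by
        rw [map_pow, orderOf_pow' _ (by norm_num), ho, (Nat.coprime_primes hp Nat.prime_five).2 hne, Nat.div_one]
      have hcomm : y * v = v * y := (Commute.pow_pow (Commute.refl g) 5 p).eq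
      have hfix : act N y.right v.left = v.left := by
        have e : v.right = 1 := hv
        have := congrArg SemidirectProduct.left hcomm
        rw [SemidirectProduct.mul_left, SemidirectProduct.mul_left, e, map_one, MulAut.one_apply,
          mul_comm] at this
        exact mul_right_cancel this
      rcases primes_G hp (card_G ▸ hyo ▸ orderOf_dvd_natCard (π y)) with rfl | rfl | rfl | rfl
      · exact ⟨wordEl w10, order_w10⟩
      · exact ⟨wordEl w15, order_w15⟩
      · exact absurd rfl hne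
      · exfalso
        refine hv1 (SemidirectProduct.ext ?_ hv)
        apply Multiplicative.toAdd.injective
        funext n
        exact no_fixed hyo (congrFun (congrArg Multiplicative.toAdd hfix) n)
    rcases (Nat.dvd_mul.1 hdvd') with ⟨a, b, ha, hb, hab⟩
    rcases (Nat.dvd_prime hp).1 ha with rfl | rfl <;> rcases (Nat.dvd_prime hq).1 hb with rfl | rfl
    · exfalso
      rw [← hab] at hdvd
      norm_num at hdvd
      exact hne (((Nat.prime_dvd_prime_iff_eq hp Nat.prime_five).1 (dvd_of_mul_right_dvd hdvd)).trans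
        ((Nat.prime_dvd_prime_iff_eq hq Nat.prime_five).1 (dvd_of_mul_left_dvd hdvd)).symm)
    · rw [one_mul] at hab
      rw [mul_comm] at hg ⊢
      exact core _ _ hq hp hne.symm hg hab.symm
    · rw [mul_one] at hab
      exact core _ _ hp hq hne hg hab.symm
    · exact ⟨π g, hab.symm⟩

theorem lt_card_ext (N : ℕ) : N < Nat.card (Ext N) := by
  rw [card_ext]
  calc N < 5 ^ N := Nat.lt_pow_self (by norm_num)
    _ ≤ 5 ^ (12 * N) := Nat.pow_le_pow_right (by norm_num) (by omega)
    _ ≤ _ := Nat.le_mul_of_pos_right _ (by norm_num)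

/-- Transport to any field with sixteen elements. -/
theorem exists_large (hF : Fintype.card F = 16) (N : ℕ) :
    ∃ (H : Type) (_ : Group H) (_ : Finite H), N < Nat.card H ∧ SameGraph (Cfsg.PSU 3 F 4) H := by
  obtain ⟨C⟩ := CfsgLib.UGeom.nonempty_conj (F := F) (q := 4) (by rw [hF]; norm_num)
  have σ : F ≃+* Q := FiniteField.ringEquivOfCardEq (hF.trans (conj.card.trans (by norm_num)).symm)
  set e : Cfsg.PSU 3 F 4 ≃* G := (psuEquiv C).trans (mapSU σ)
  refine ⟨Ext N, inferInstance, Finite.of_equiv _ SemidirectProduct.equivProd.symm, lt_card_ext N,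
    fun p hp => ?_, fun p q hp hq hne => ?_⟩
  · rw [Nat.card_congr e.toEquiv]; exact (sameGraph N).1 p hp
  · rw [← (sameGraph N).2 p q hp hq hne]
    exact ⟨fun ⟨g, hg⟩ => ⟨e g, by rw [MulEquiv.orderOf_eq, hg]⟩, fun ⟨g, hg⟩ => ⟨e.symm g, by rw [MulEquiv.orderOf_eq, hg]⟩⟩

end CfsgLib.U3Four
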