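import Cfsg.Agent.U3Four.Field
import Cfsg.Agent.U3Four.Data
import Cfsg.Prelude.Def_Classical
import Cfsg.Prelude.Def_ClassicalGeometry

/-!
# Checkers working on codes, and their meaning
-/

set_option autoImplicit false

namespace CfsgLib.U3Four

open Matrix

/-- A matrix from its code. -/
def dec3 (c : ℕ) : Matrix (Fin 3) (Fin 3) Q := Matrix.of fun i j => Q.ofN (c / 16 ^ (8 - (3 * i.val + j.val)))

/-- A vector from its code. -/
def dec12 (c : ℕ) : Fin 12 → ZMod 5 := fun i => ((c / 5 ^ i.val : ℕ) : ZMod 5)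

/-- A matrix from the codes of its rows. -/
def decM (L : List ℕ) : Matrix (Fin 12) (Fin 12) (ZMod 5) := Matrix.of fun i => dec12 (L.getD i.val 0)

/-- An entry of a coded matrix. -/
def ent (c k : ℕ) : ℕ := c / 16 ^ (8 - k) % 16

/-- An entry of a product of coded matrices. -/
def prodEnt (a b i j : ℕ) : ℕ :=
  Q.mulN (ent a (3 * i)) (ent b j) ^^^
    (Q.mulN (ent a (3 * i + 1)) (ent b (3 + j)) ^^^ Q.mulN (ent a (3 * i + 2)) (ent b (6 + j)))

/-- `A B = C D` for coded matrices. -/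
def prodEq (a b c d : ℕ) : Bool :=
  (List.range 3).all fun i => (List.range 3).all fun j => Nat.beq (prodEnt a b i j % 16) (prodEnt c d i j % 16)

/-- The dot product of coded vectors. -/
def dotN : ℕ → ℕ → ℕ → ℕ
  | 0, _, _ => 0
  | k + 1, r, v => (r % 5) * (v % 5) + dotN k (r / 5) (v / 5)

/-- A coded matrix applied to a coded vector. -/
def applyN (L : List ℕ) (v : ℕ) : ℕ := L.foldr (fun r acc => dotN 12 r v % 5 + 5 * acc) 0

/-- The fourth power of a code. -/
def pow4 (a : ℕ) : ℕ := Q.mulN (Q.mulN a a) (Q.mulN a a)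

/-- The value of the form on a coded vector. -/
def formN (x y z : ℕ) : ℕ := Q.mulN x (pow4 x) ^^^ (Q.mulN y (pow4 y) ^^^ Q.mulN z (pow4 z))

/-- An entry of a coded transvection. -/
def tvEnt (x y z c i j : ℕ) : ℕ :=
  (bif Nat.beq i j then 1 else 0) ^^^ Q.mulN c (Q.mulN ([x, y, z].getD i 0) (pow4 ([x, y, z].getD j 0)))

/-- The code of a transvection. -/
def tvCode (x y z c : ℕ) : ℕ :=
  (List.range 9).foldl (fun acc k => 16 * acc + tvEnt x y z c (k / 3) (k % 3) % 16) 0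

theorem ofN_mod (a : ℕ) : Q.ofN (a % 16) = Q.ofN a := by
  simp [Q.ofN]

theorem ofN_add (a b : ℕ) : Q.ofN a + Q.ofN b = Q.ofN (a ^^^ b) := by
  show Q.ofN ((a % 16) ^^^ (b % 16)) = _
  rw [← ofN_mod (a ^^^ b), show (16 : ℕ) = 2 ^ 4 from rfl, Nat.xor_mod_two_pow]

theorem ofN_mul (a b : ℕ) : Q.ofN a * Q.ofN b = Q.ofN (Q.mulN (a % 16) (b % 16)) := rfl

theorem ofN_val (x : Q) : Q.ofN x.n.val = x := by
  obtain ⟨⟨n, hn⟩⟩ := x
  simp [Q.ofN, Nat.mod_eq_of_lt hn]

theorem dec3_mul (a b : ℕ) (i j : Fin 3) : (dec3 a * dec3 b) i j = Q.ofN (prodEnt a b i.val j.val) := by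
  rw [Matrix.mul_apply, Fin.sum_univ_three]
  simp only [dec3, Matrix.of_apply, prodEnt, ent, ofN_mul, ofN_add, Fin.val_zero, Fin.val_one, Fin.val_two]
  rw [Nat.xor_assoc]
  simp only [mul_zero, mul_one, zero_add, add_zero]

theorem prodEq_sound {a b c d : ℕ} (h : prodEq a b c d = true) : dec3 a * dec3 b = dec3 c * dec3 d := by
  simp only [prodEq, List.all_eq_true, List.mem_range] at h
  ext i j : 1
  rw [dec3_mul, dec3_mul, ← ofN_mod, Nat.eq_of_beq_eq_true (h i.val i.isLt j.val j.isLt), ofN_mod]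

theorem dec3_inj {a b : ℕ} (ha : a < 16 ^ 9) (hb : b < 16 ^ 9) (h : dec3 a = dec3 b) : a = b := by
  have hd : ∀ k < 9, a / 16 ^ k % 16 = b / 16 ^ k % 16 := by
    intro k hk
    have e : 8 - (3 * ((8 - k) / 3) + (8 - k) % 3) = k := by omega
    have := congrArg (fun X : Matrix (Fin 3) (Fin 3) Q =>
      (X ⟨(8 - k) / 3, by omega⟩ ⟨(8 - k) % 3, by omega⟩).n.val) h
    simpa [dec3, Q.ofN, e] using this
  have key : ∀ k ≤ 9, a % 16 ^ k = b % 16 ^ k := by
    intro k
    induction k with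
    | zero => intro _; simp [Nat.mod_one]
    | succ k ih =>
      intro hk
      rw [Nat.mod_pow_succ, Nat.mod_pow_succ, ih (by omega), hd k (by omega)]
  have := key 9 le_rfl
  rwa [Nat.mod_eq_of_lt ha, Nat.mod_eq_of_lt hb] at this

theorem dotN_eq : ∀ k r v : ℕ, (dotN k r v : ZMod 5) =
    ∑ b ∈ Finset.range k, ((r / 5 ^ b : ℕ) : ZMod 5) * ((v / 5 ^ b : ℕ) : ZMod 5) := by
  intro k
  induction k with
  | zero => intro r v; simp [dotN]
  | succ k ih =>
    intro r v
    rw [dotN, Nat.cast_add, Nat.cast_mul, ZMod.natCast_mod, ZMod.natCast_mod, ih, Finset.sum_range_succ']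
    simp [Nat.div_div_eq_div_mul, pow_succ', add_comm]

theorem applyN_digit : ∀ (L : List ℕ) (v a : ℕ), a < L.length →
    applyN L v / 5 ^ a % 5 = dotN 12 (L.getD a 0) v % 5 := by
  intro L
  induction L with
  | nil => intro v a h; simp at h
  | cons r L ih =>
    intro v a h
    have e : applyN (r :: L) v = dotN 12 r v % 5 + 5 * applyN L v := rfl
    cases a with
    | zero => rw [e]; simp [Nat.add_mul_mod_self_left]
    | succ a =>
      rw [e, pow_succ', ← Nat.div_div_eq_div_mul,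
        show (dotN 12 r v % 5 + 5 * applyN L v) / 5 = applyN L v by omega, List.getD_cons_succ]
      exact ih v a (by simpa using h)

theorem applyN_sound {L : List ℕ} (hL : L.length = 12) (v : ℕ) : decM L *ᵥ dec12 v = dec12 (applyN L v) := by
  funext a
  show ∑ b : Fin 12, dec12 (L.getD a.val 0) b * dec12 v b = ((applyN L v / 5 ^ a.val : ℕ) : ZMod 5)
  rw [← ZMod.natCast_mod (applyN L v / 5 ^ a.val) 5, applyN_digit L v a.val (by omega), ZMod.natCast_mod,
    dotN_eq, ← Fin.sum_univ_eq_sum_range]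
  rfl

theorem pow4_eq : ∀ x : Q, x ^ 4 = Q.ofN (pow4 x.n.val) := by decide +kernel

theorem formN_eq (x y z : Q) :
    Cfsg.hermForm 3 Q 4 ![x, y, z] ![x, y, z] = Q.ofN (formN x.n.val y.n.val z.n.val) := by
  have hx : ∀ u : Q, u * u ^ 4 = Q.ofN (Q.mulN u.n.val (pow4 u.n.val)) := by decide +kernel
  show ∑ i, ![x, y, z] i * ![x, y, z] i ^ 4 = _
  rw [Fin.sum_univ_three]
  show x * x ^ 4 + y * y ^ 4 + z * z ^ 4 = _
  rw [hx, hx, hx, ofN_add, ofN_add, formN, Nat.xor_assoc]

theorem tvEnt_eq (x y z c : Q) (i j : Fin 3) :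
    Cfsg.unitaryTransvection 3 4 ![x, y, z] c i j = Q.ofN (tvEnt x.n.val y.n.val z.n.val c.n.val i.val j.val) := by
  have hm : ∀ a b : Q, a * b ^ 4 = Q.ofN (Q.mulN a.n.val (pow4 b.n.val)) := by decide +kernel
  have hv : ∀ k : Fin 3, [x.n.val, y.n.val, z.n.val].getD k.val 0 = (![x, y, z] k).n.val := by
    intro k; fin_cases k <;> rfl
  have h16 : ∀ a b : Q, Q.mulN a.n.val (pow4 b.n.val) < 16 := by decide +kernel
  simp only [Cfsg.unitaryTransvection, Matrix.add_apply, Matrix.smul_apply, Matrix.vecMulVec_apply, smul_eq_mul,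
    Matrix.one_apply, tvEnt, hv, hm]
  rw [← ofN_add]
  congr 1
  · rcases eq_or_ne i j with rfl | e
    · simp; rfl
    · rw [if_neg e, show Nat.beq i.val j.val = false from Bool.eq_false_iff.2 fun h => e (Fin.ext (Nat.eq_of_beq_eq_true h))]
      rfl
  · conv_lhs => rw [← ofN_val c]
    rw [ofN_mul, Nat.mod_eq_of_lt c.n.isLt, Nat.mod_eq_of_lt (h16 _ _)]

theorem tvCode_eq (x y z c : Q) :
    dec3 (tvCode x.n.val y.n.val z.n.val c.n.val) = Cfsg.unitaryTransvection 3 4 ![x, y, z] c := by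
  ext i j : 1
  rw [tvEnt_eq]
  generalize x.n.val = a, y.n.val = b, z.n.val = d, c.n.val = e
  simp only [dec3, Matrix.of_apply, tvCode, List.range, List.range.loop, List.foldl]
  rw [← ofN_mod, ← ofN_mod (tvEnt a b d e i.val j.val)]
  congr 1
  fin_cases i <;> fin_cases j <;> simp <;> omega

end CfsgLib.U3Four
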