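import Mathlib

/-!
# A computable field with sixteen elements
-/

set_option autoImplicit false

namespace CfsgLib.U3Four

/-- The binary polynomials of degree below four, modulo `X^4 + X + 1`. -/
structure Q : Type where
  /-- the coefficient bits -/
  n : Fin 16
deriving DecidableEq

namespace Q

/-- Multiplication by the generator. -/
def xt (a : ℕ) : ℕ := bif a.blt 8 then 2 * a else (2 * a) ^^^ 19

/-- The product of two codes. -/
def mulN (a b : ℕ) : ℕ :=
  ((bif b % 2 == 1 then a else 0) ^^^ (bif b / 2 % 2 == 1 then xt a else 0)) ^^^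
    ((bif b / 4 % 2 == 1 then xt (xt a) else 0) ^^^ (bif b / 8 % 2 == 1 then xt (xt (xt a)) else 0))

/-- An element from its code. -/
def ofN (a : ℕ) : Q := ⟨⟨a % 16, Nat.mod_lt _ (by decide)⟩⟩

instance instFintypeQ : Fintype Q :=
  Fintype.ofEquiv (Fin 16) ⟨fun a => ⟨a⟩, fun x => x.n, fun _ => rfl, fun _ => rfl⟩

instance instAddQ : Add Q := ⟨fun x y => ofN (x.n.val ^^^ y.n.val)⟩

instance instMulQ : Mul Q := ⟨fun x y => ofN (mulN x.n.val y.n.val)⟩

instance instZeroQ : Zero Q := ⟨⟨0⟩⟩

instance instOneQ : One Q := ⟨⟨1⟩⟩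

instance instNegQ : Neg Q := ⟨id⟩

instance instInvQ : Inv Q :=
  ⟨fun x => ((List.range 16).find? fun b => decide (mulN x.n.val b = 1)).elim ⟨0⟩ ofN⟩

theorem add_assoc' : ∀ a b c : Q, a + b + c = a + (b + c) := by decide +kernel

theorem mul_assoc' : ∀ a b c : Q, a * b * c = a * (b * c) := by decide +kernel

theorem left_distrib' : ∀ a b c : Q, a * (b + c) = a * b + a * c := by decide +kernel

theorem right_distrib' : ∀ a b c : Q, (a + b) * c = a * c + b * c := by decide +kernel

instance instFieldQ : Field Q where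
  add_assoc := add_assoc'
  zero_add := by decide +kernel
  add_zero := by decide +kernel
  add_comm := by decide +kernel
  neg_add_cancel := by decide +kernel
  mul_assoc := mul_assoc'
  one_mul := by decide +kernel
  mul_one := by decide +kernel
  left_distrib := left_distrib'
  right_distrib := right_distrib'
  zero_mul := by decide +kernel
  mul_zero := by decide +kernel
  mul_comm := by decide +kernel
  exists_pair_ne := ⟨⟨0⟩, ⟨1⟩, by decide⟩
  mul_inv_cancel := by decide +kernel
  inv_zero := by decide +kernel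
  nsmul := nsmulRec
  nsmul_zero := fun _ => rfl
  nsmul_succ := fun _ _ => rfl
  zsmul := zsmulRec
  zsmul_zero' := fun _ => rfl
  zsmul_succ' := fun _ _ => rfl
  zsmul_neg' := fun _ _ => rfl
  nnqsmul := _
  nnqsmul_def := fun _ _ => rfl
  qsmul := _
  qsmul_def := fun _ _ => rfl

theorem card_eq : Fintype.card Q = 16 := rfl

end Q

end CfsgLib.U3Four
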