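import Cfsg.Agent.U3Four.Check
import Cfsg.Agent.UGeom.Simple
import Cfsg.Agent.UGeom.Center

/-!
# The twelve dimensional representation of `SU3(4)` over the field with five elements

The elements of order five with centraliser of order twenty five form a class; a table attaches a vector to each of
them, and the representation is the only map compatible with conjugation and this table.
-/

set_option autoImplicit false
set_option maxRecDepth 100000

namespace CfsgLib.U3Four

open Matrix CfsgLib.Chev

/-- Three by three matrices over the field with sixteen elements. -/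
abbrev M3 := Matrix (Fin 3) (Fin 3) Q

/-- Twelve by twelve matrices over the field with five elements. -/
abbrev M12 := Matrix (Fin 12) (Fin 12) (ZMod 5)

/-- The conjugation. -/
def conj : CfsgLib.UGeom.Conj Q 4 where
  σ :=
    { toFun := fun x => x ^ 4
      map_one' := by decide +kernel
      map_mul' := by decide +kernel
      map_zero' := by decide +kernel
      map_add' := by decide +kernel }
  pow := fun _ => rfl
  invol := by decide +kernel
  ne_id := fun h => by
    have := congrArg (fun f : Q →+* Q => f (Q.ofN 2)) h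
    revert this
    decide +kernel
  two_le := by decide
  card := rfl

/-- The group. -/
abbrev G := Cfsg.SU 3 Q 4

/-- The matrix of an element. -/
def mat (g : G) : M3 := ((g : Matrix.SpecialLinearGroup (Fin 3) Q) : M3)

theorem mat_mul (g h : G) : mat (g * h) = mat g * mat h := rfl

theorem mat_one : mat 1 = 1 := rfl

theorem mat_inj : Function.Injective mat := fun _ _ h => Subtype.ext (Subtype.ext h)

theorem mat_cancel (g : G) {X Y : M3} (h : X * mat g = Y * mat g) : X = Y := by
  have := congrArg (· * mat g⁻¹) h
  simp only [mul_assoc, ← mat_mul, mul_inv_cancel, mat_one, mul_one] at this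
  exact this

/-- The elements of the class. -/
noncomputable def el (i : ℕ) : M3 := dec3 (Data.elT.get i)

/-- The attached vectors. -/
noncomputable def phi (i : ℕ) : Fin 12 → ZMod 5 := dec12 (Data.phiT.get i)

/-- The isotropy and trace conditions for a transvection. -/
def TCond (v : Fin 3 → Q) (c : Q) : Prop := Cfsg.hermForm 3 Q 4 v v = 0 ∧ c + conj.σ c = 0

instance instDecidableTCond (v : Fin 3 → Q) (c : Q) : Decidable (TCond v c) :=
  inferInstanceAs (Decidable (_ ∧ _))

/-- The vector of a coded transvection. -/
def tvec (p : ℕ × ℕ × ℕ × ℕ) : Fin 3 → Q := ![Q.ofN p.1, Q.ofN p.2.1, Q.ofN p.2.2.1]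

/-- The matrix of a coded transvection. -/
def tvMat (p : ℕ × ℕ × ℕ × ℕ) : M3 := Cfsg.unitaryTransvection 3 4 (tvec p) (Q.ofN p.2.2.2)

/-- A coded transvection. -/
noncomputable def tvEl (p : ℕ × ℕ × ℕ × ℕ) : G :=
  if h : TCond (tvec p) (Q.ofN p.2.2.2) then CfsgLib.UGeom.utv conj _ _ h.1 h.2 else 1

theorem mat_tvEl {p : ℕ × ℕ × ℕ × ℕ} (h : TCond (tvec p) (Q.ofN p.2.2.2)) : mat (tvEl p) = tvMat p := by
  rw [tvEl, dif_pos h]; rfl

/-- The product of a word of transvections. -/
noncomputable def wordEl (w : List (ℕ × ℕ × ℕ × ℕ)) : G := (w.map tvEl).prod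

/-- The matrix of a word. -/
def wordMat (w : List (ℕ × ℕ × ℕ × ℕ)) : M3 := (w.map tvMat).prod

theorem mat_wordEl {w : List (ℕ × ℕ × ℕ × ℕ)} (h : ∀ p ∈ w, TCond (tvec p) (Q.ofN p.2.2.2)) :
    mat (wordEl w) = wordMat w := by
  induction w with
  | nil => rfl
  | cons p w ih =>
    rw [show wordEl (p :: w) = tvEl p * wordEl w by simp [wordEl], mat_mul, mat_tvEl (h p (List.mem_cons_self ..)),
      ih fun q hq => h q (List.mem_cons_of_mem _ hq)]
    simp [wordMat]

/-- The word of the first generator. -/
def wA : List (ℕ × ℕ × ℕ × ℕ) := [(0, 1, 1, 1)]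

/-- The word of the second generator, of order 13. -/
def wB : List (ℕ × ℕ × ℕ × ℕ) := [(1, 7, 6, 6), (1, 9, 3, 6), (1, 11, 6, 1)]

/-- The word of order 10. -/
def w10 : List (ℕ × ℕ × ℕ × ℕ) := [(1, 2, 14, 7), (1, 0, 12, 1), (1, 7, 6, 1)]

/-- The word of order 15. -/
def w15 : List (ℕ × ℕ × ℕ × ℕ) := [(1, 7, 6, 6), (1, 10, 0, 7), (1, 7, 9, 7)]

theorem words_ok : ∀ w ∈ [wA, wB, w10, w15], ∀ p ∈ w, TCond (tvec p) (Q.ofN p.2.2.2) := by decide +kernel

theorem mat_gA : mat (wordEl wA) = wordMat wA := mat_wordEl (words_ok _ (by simp))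

theorem mat_gB : mat (wordEl wB) = wordMat wB := mat_wordEl (words_ok _ (by simp))

/-! ### The table -/

/-- One row of the table is carried to another by a generator. -/
noncomputable def stepOK (X : ℕ) (L : List ℕ) (P : Trie ℕ) (i : ℕ) : Bool :=
  Nat.blt (P.get i) 2496 && prodEq X (Data.elT.get i) (Data.elT.get (P.get i)) X &&
    Nat.beq (applyN L (Data.phiT.get i)) (Data.phiT.get (P.get i))

/-- The code of the first generator. -/
def cA : ℕ := 4294971408

/-- The code of the second generator. -/
def cB : ℕ := 63635141910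

theorem cA_eq : dec3 cA = wordMat wA := by decide +kernel

theorem cB_eq : dec3 cB = wordMat wB := by decide +kernel

theorem stepA0 : ((List.range 192).map (· + 0)).all (stepOK cA Data.mA Data.permA) = true := by decide +kernel

theorem stepA1 : ((List.range 192).map (· + 192)).all (stepOK cA Data.mA Data.permA) = true := by decide +kernel

theorem stepA2 : ((List.range 192).map (· + 384)).all (stepOK cA Data.mA Data.permA) = true := by decide +kernel

theorem stepA3 : ((List.range 192).map (· + 576)).all (stepOK cA Data.mA Data.permA) = true := by decide +kernel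

theorem stepA4 : ((List.range 192).map (· + 768)).all (stepOK cA Data.mA Data.permA) = true := by decide +kernel

theorem stepA5 : ((List.range 192).map (· + 960)).all (stepOK cA Data.mA Data.permA) = true := by decide +kernel

theorem stepA6 : ((List.range 192).map (· + 1152)).all (stepOK cA Data.mA Data.permA) = true := by decide +kernel

theorem stepA7 : ((List.range 192).map (· + 1344)).all (stepOK cA Data.mA Data.permA) = true := by decide +kernel

theorem stepA8 : ((List.range 192).map (· + 1536)).all (stepOK cA Data.mA Data.permA) = true := by decide +kernel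

theorem stepA9 : ((List.range 192).map (· + 1728)).all (stepOK cA Data.mA Data.permA) = true := by decide +kernel

theorem stepA10 : ((List.range 192).map (· + 1920)).all (stepOK cA Data.mA Data.permA) = true := by decide +kernel

theorem stepA11 : ((List.range 192).map (· + 2112)).all (stepOK cA Data.mA Data.permA) = true := by decide +kernel

theorem stepA12 : ((List.range 192).map (· + 2304)).all (stepOK cA Data.mA Data.permA) = true := by decide +kernel

theorem stepA : ∀ i < 2496, stepOK cA Data.mA Data.permA i = true := by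
  intro i hi
  have key : ∀ c : ℕ, ((List.range 192).map (· + 192 * c)).all (stepOK cA Data.mA Data.permA) = true →
      192 * c ≤ i → i < 192 * c + 192 → stepOK cA Data.mA Data.permA i = true := fun c hc h1 h2 =>
    List.all_eq_true.1 hc i (List.mem_map.2 ⟨i - 192 * c, List.mem_range.2 (by omega), by omega⟩)
  by_cases h0 : i < 192
  · exact key 0 stepA0 (by omega) (by omega)
  by_cases h1 : i < 384
  · exact key 1 stepA1 (by omega) (by omega)
  by_cases h2 : i < 576
  · exact key 2 stepA2 (by omega) (by omega)
  by_cases h3 : i < 768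
  · exact key 3 stepA3 (by omega) (by omega)
  by_cases h4 : i < 960
  · exact key 4 stepA4 (by omega) (by omega)
  by_cases h5 : i < 1152
  · exact key 5 stepA5 (by omega) (by omega)
  by_cases h6 : i < 1344
  · exact key 6 stepA6 (by omega) (by omega)
  by_cases h7 : i < 1536
  · exact key 7 stepA7 (by omega) (by omega)
  by_cases h8 : i < 1728
  · exact key 8 stepA8 (by omega) (by omega)
  by_cases h9 : i < 1920
  · exact key 9 stepA9 (by omega) (by omega)
  by_cases h10 : i < 2112
  · exact key 10 stepA10 (by omega) (by omega)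
  by_cases h11 : i < 2304
  · exact key 11 stepA11 (by omega) (by omega)
  exact key 12 stepA12 (by omega) (by omega)

theorem stepB0 : ((List.range 192).map (· + 0)).all (stepOK cB Data.mB Data.permB) = true := by decide +kernel

theorem stepB1 : ((List.range 192).map (· + 192)).all (stepOK cB Data.mB Data.permB) = true := by decide +kernel

theorem stepB2 : ((List.range 192).map (· + 384)).all (stepOK cB Data.mB Data.permB) = true := by decide +kernel

theorem stepB3 : ((List.range 192).map (· + 576)).all (stepOK cB Data.mB Data.permB) = true := by decide +kernel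

theorem stepB4 : ((List.range 192).map (· + 768)).all (stepOK cB Data.mB Data.permB) = true := by decide +kernel

theorem stepB5 : ((List.range 192).map (· + 960)).all (stepOK cB Data.mB Data.permB) = true := by decide +kernel

theorem stepB6 : ((List.range 192).map (· + 1152)).all (stepOK cB Data.mB Data.permB) = true := by decide +kernel

theorem stepB7 : ((List.range 192).map (· + 1344)).all (stepOK cB Data.mB Data.permB) = true := by decide +kernel

theorem stepB8 : ((List.range 192).map (· + 1536)).all (stepOK cB Data.mB Data.permB) = true := by decide +kernel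

theorem stepB9 : ((List.range 192).map (· + 1728)).all (stepOK cB Data.mB Data.permB) = true := by decide +kernel

theorem stepB10 : ((List.range 192).map (· + 1920)).all (stepOK cB Data.mB Data.permB) = true := by decide +kernel

theorem stepB11 : ((List.range 192).map (· + 2112)).all (stepOK cB Data.mB Data.permB) = true := by decide +kernel

theorem stepB12 : ((List.range 192).map (· + 2304)).all (stepOK cB Data.mB Data.permB) = true := by decide +kernel

theorem stepB : ∀ i < 2496, stepOK cB Data.mB Data.permB i = true := by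
  intro i hi
  have key : ∀ c : ℕ, ((List.range 192).map (· + 192 * c)).all (stepOK cB Data.mB Data.permB) = true →
      192 * c ≤ i → i < 192 * c + 192 → stepOK cB Data.mB Data.permB i = true := fun c hc h1 h2 =>
    List.all_eq_true.1 hc i (List.mem_map.2 ⟨i - 192 * c, List.mem_range.2 (by omega), by omega⟩)
  by_cases h0 : i < 192
  · exact key 0 stepB0 (by omega) (by omega)
  by_cases h1 : i < 384
  · exact key 1 stepB1 (by omega) (by omega)
  by_cases h2 : i < 576
  · exact key 2 stepB2 (by omega) (by omega)
  by_cases h3 : i < 768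
  · exact key 3 stepB3 (by omega) (by omega)
  by_cases h4 : i < 960
  · exact key 4 stepB4 (by omega) (by omega)
  by_cases h5 : i < 1152
  · exact key 5 stepB5 (by omega) (by omega)
  by_cases h6 : i < 1344
  · exact key 6 stepB6 (by omega) (by omega)
  by_cases h7 : i < 1536
  · exact key 7 stepB7 (by omega) (by omega)
  by_cases h8 : i < 1728
  · exact key 8 stepB8 (by omega) (by omega)
  by_cases h9 : i < 1920
  · exact key 9 stepB9 (by omega) (by omega)
  by_cases h10 : i < 2112
  · exact key 10 stepB10 (by omega) (by omega)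
  by_cases h11 : i < 2304
  · exact key 11 stepB11 (by omega) (by omega)
  exact key 12 stepB12 (by omega) (by omega)



theorem el_code : (List.range 2496).all (fun i => Nat.blt (Data.elT.get i) (16 ^ 9) &&
    (Nat.ble 2495 i || Nat.blt (Data.elT.get i) (Data.elT.get (i + 1)))) = true := by decide +kernel

theorem el_injOn {i j : ℕ} (hi : i < 2496) (hj : j < 2496) (h : el i = el j) : i = j := by
  have hc := el_code
  simp only [List.all_eq_true, List.mem_range, Bool.and_eq_true, Bool.or_eq_true, Nat.ble_eq, Nat.blt_eq] at hc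
  have e : Data.elT.get i = Data.elT.get j := dec3_inj (hc i hi).1 (hc j hj).1 h
  have mono : ∀ a b : ℕ, a < b → b < 2496 → Data.elT.get a < Data.elT.get b := by
    intro a b hab
    induction b with
    | zero => omega
    | succ b ih =>
      intro hb
      have h1 := ((hc b (by omega)).2.resolve_left (by omega))
      rcases Nat.lt_succ_iff_lt_or_eq.1 hab with h' | rfl
      · exact (ih h' (by omega)).trans h1
      · exact h1
  rcases lt_trichotomy i j with h' | h' | h'
  · exact absurd e (Nat.ne_of_lt (mono i j h' hj))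
  · exact h'
  · exact absurd e.symm (Nat.ne_of_lt (mono j i h' hi))

theorem basis_ok : decM Data.basisInv *
    (Matrix.of fun a b : Fin 12 => phi (Data.sel.getD b.val 0) a) = 1 := by decide +kernel

theorem sel_lt : ∀ b : Fin 12, Data.sel.getD b.val 0 < 2496 := by decide +kernel

theorem inv_ok : decM Data.mA * decM Data.mAi = 1 ∧ decM Data.mAi * decM Data.mA = 1 ∧
    decM Data.mB * decM Data.mBi = 1 ∧ decM Data.mBi * decM Data.mB = 1 := by decide +kernel

/-- The matrix of the first generator. -/
def uA : GL (Fin 12) (ZMod 5) := ⟨decM Data.mA, decM Data.mAi, inv_ok.1, inv_ok.2.1⟩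

/-- The matrix of the second generator. -/
def uB : GL (Fin 12) (ZMod 5) := ⟨decM Data.mB, decM Data.mBi, inv_ok.2.2.1, inv_ok.2.2.2⟩

/-- Compatibility with the table. -/
def IsPair (g : G) (M : GL (Fin 12) (ZMod 5)) : Prop :=
  ∀ i < 2496, ∃ j < 2496, mat g * el i = el j * mat g ∧ (M : M12) *ᵥ phi i = phi j

theorem isPair_one : IsPair 1 1 := fun i hi => ⟨i, hi, by simp [mat_one], by simp⟩

theorem isPair_mul {g h : G} {M N : GL (Fin 12) (ZMod 5)} (h1 : IsPair g M) (h2 : IsPair h N) :
    IsPair (g * h) (M * N) := fun i hi => by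
  obtain ⟨j, hj, e1, e2⟩ := h2 i hi
  obtain ⟨l, hl, e3, e4⟩ := h1 j hj
  exact ⟨l, hl, by rw [mat_mul, mul_assoc, e1, ← mul_assoc, e3, mul_assoc],
    by rw [Units.val_mul, ← mulVec_mulVec, e2, e4]⟩

theorem isPair_pow {g : G} {M : GL (Fin 12) (ZMod 5)} (h : IsPair g M) : ∀ k : ℕ, IsPair (g ^ k) (M ^ k)
  | 0 => by simpa using isPair_one
  | k + 1 => by rw [pow_succ, pow_succ]; exact isPair_mul (isPair_pow h k) h

theorem isPair_unique {g : G} {M N : GL (Fin 12) (ZMod 5)} (h1 : IsPair g M) (h2 : IsPair g N) : M = N := by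
  have key : ∀ i < 2496, (M : M12) *ᵥ phi i = (N : M12) *ᵥ phi i := fun i hi => by
    obtain ⟨j, hj, e1, e2⟩ := h1 i hi
    obtain ⟨l, hl, e3, e4⟩ := h2 i hi
    rw [e2, e4, el_injOn hj hl (mat_cancel g (e1.symm.trans e3))]
  have hB : (M : M12) * (Matrix.of fun a b : Fin 12 => phi (Data.sel.getD b.val 0) a) =
      (N : M12) * (Matrix.of fun a b : Fin 12 => phi (Data.sel.getD b.val 0) a) := by
    ext a b
    exact congrFun (key _ (sel_lt b)) a
  have hinv := mul_eq_one_comm.1 basis_ok
  have := congrArg (· * decM Data.basisInv) hB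
  simp only [mul_assoc, hinv, mul_one] at this
  exact Units.ext this

theorem isPair_gA : IsPair (wordEl wA) uA := fun i hi => by
  have h := stepA i hi
  simp only [stepOK, Bool.and_eq_true, Nat.blt_eq] at h
  refine ⟨_, h.1.1, ?_, ?_⟩
  · rw [mat_gA, ← cA_eq]; exact prodEq_sound h.1.2
  · show decM _ *ᵥ dec12 _ = _
    rw [applyN_sound rfl, Nat.eq_of_beq_eq_true h.2]
    rfl

theorem isPair_gB : IsPair (wordEl wB) uB := fun i hi => by
  have h := stepB i hi
  simp only [stepOK, Bool.and_eq_true, Nat.blt_eq] at h
  refine ⟨_, h.1.1, ?_, ?_⟩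
  · rw [mat_gB, ← cB_eq]; exact prodEq_sound h.1.2
  · show decM _ *ᵥ dec12 _ = _
    rw [applyN_sound rfl, Nat.eq_of_beq_eq_true h.2]
    rfl

/-! ### Generation -/

/-- The transvection matrices. -/
noncomputable def tv (i : ℕ) : M3 := dec3 (Data.tvT.get i)

theorem tree_ok : ((Nat.beq (Data.tvT.get 0) cA) && (List.range 195).all fun i => Nat.ble i 0 ||
    (Nat.blt (Data.parT.get i / 2) i &&
      prodEq (Data.tvT.get i) (bif Nat.beq (Data.parT.get i % 2) 0 then cA else cB)
        (bif Nat.beq (Data.parT.get i % 2) 0 then cA else cB) (Data.tvT.get (Data.parT.get i / 2)))) = true := by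
  decide +kernel

theorem all_tv_code : ((List.range 16).all fun x => (List.range 16).all fun y => (List.range 16).all fun z =>
    !(Nat.beq (formN x y z % 16) 0) || (Nat.beq x 0 && Nat.beq y 0 && Nat.beq z 0) ||
      (List.range 16).all fun c => !(Nat.beq (pow4 c) c) || Nat.beq c 0 ||
        (List.range 195).any fun i => Nat.beq (tvCode x y z c) (Data.tvT.get i)) = true := by
  decide +kernel

theorem all_tv : ∀ x y z : Q, Cfsg.hermForm 3 Q 4 ![x, y, z] ![x, y, z] = 0 → ∀ c : Q, c + c ^ 4 = 0 →
    (x = 0 ∧ y = 0 ∧ z = 0) ∨ c = 0 ∨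
      ∃ i < 195, Cfsg.unitaryTransvection 3 4 ![x, y, z] c = tv i := by
  intro x y z hv c hc
  have zero : ∀ u : Q, Nat.beq u.n.val 0 = true → u = 0 := by decide +kernel
  have fix4 : ∀ u : Q, u + u ^ 4 = 0 → Nat.beq (pow4 u.n.val) u.n.val = true := by decide +kernel
  have h := all_tv_code
  simp only [List.all_eq_true, List.mem_range, Bool.or_eq_true, Bool.not_eq_true', Bool.and_eq_true,
    List.any_eq_true] at h
  rw [formN_eq] at hv
  have hf : formN x.n.val y.n.val z.n.val % 16 = 0 := congrArg (fun u : Q => u.n.val) hv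
  rcases h x.n.val x.n.isLt y.n.val y.n.isLt z.n.val z.n.isLt with (h' | h') | h'
  · rw [hf] at h'; exact absurd h' (by decide)
  · exact Or.inl ⟨zero x h'.1.1, zero y h'.1.2, zero z h'.2⟩
  · rcases h' c.n.val c.n.isLt with (h'' | h'') | ⟨i, hi, h''⟩
    · rw [fix4 c hc] at h''; exact absurd h'' (by decide)
    · exact Or.inr (Or.inl (zero c h''))
    · exact Or.inr (Or.inr ⟨i, hi, by rw [← tvCode_eq, Nat.eq_of_beq_eq_true h'']; rfl⟩)

/-- The subgroup generated by the two generators. -/
noncomputable def K : Subgroup G := Subgroup.closure {wordEl wA, wordEl wB}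

theorem gA_mem : wordEl wA ∈ K := Subgroup.subset_closure (by simp)

theorem gB_mem : wordEl wB ∈ K := Subgroup.subset_closure (by simp)

theorem tv_mem : ∀ i < 195, ∃ t ∈ K, mat t = tv i := by
  have h := tree_ok
  simp only [Bool.and_eq_true, List.all_eq_true, List.mem_range, Bool.or_eq_true, Nat.ble_eq, Nat.blt_eq] at h
  intro i
  induction i using Nat.strong_induction_on with
  | _ i ih =>
    intro hi
    rcases h.2 i hi with h0 | ⟨hlt, he⟩
    · obtain rfl : i = 0 := by omega
      exact ⟨wordEl wA, gA_mem, by rw [mat_gA, ← cA_eq, tv, Nat.eq_of_beq_eq_true h.1]⟩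
    obtain ⟨t, ht, hte⟩ := ih _ hlt (by omega)
    obtain ⟨g, hg, hge⟩ : ∃ g ∈ K, mat g =
        dec3 (bif Nat.beq (Data.parT.get i % 2) 0 then cA else cB) := by
      cases Nat.beq (Data.parT.get i % 2) 0
      · exact ⟨_, gB_mem, by rw [mat_gB, cond_false, cB_eq]⟩
      · exact ⟨_, gA_mem, by rw [mat_gA, cond_true, cA_eq]⟩
    refine ⟨g * t * g⁻¹, mul_mem (mul_mem hg ht) (inv_mem hg), mat_cancel g ?_⟩
    rw [← mat_mul, inv_mul_cancel_right, mat_mul, hte, hge]
    exact (prodEq_sound he).symm

theorem K_eq_top : K = ⊤ := by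
  refine CfsgLib.UGeom.eq_top_of_utv conj le_rfl (by decide) _ fun v c hv hc => ?_
  have hm : mat (CfsgLib.UGeom.utv conj v c hv hc) = Cfsg.unitaryTransvection 3 4 v c := rfl
  have hv' : v = ![v 0, v 1, v 2] := by ext i; fin_cases i <;> rfl
  have htriv : v = 0 ∨ c = 0 → CfsgLib.UGeom.utv conj v c hv hc ∈ K := fun h => by
    have : CfsgLib.UGeom.utv conj v c hv hc = 1 := mat_inj (by
      rw [hm, mat_one]
      rcases h with rfl | rfl <;> simp [Cfsg.unitaryTransvection])
    rw [this]; exact one_mem _
  rcases all_tv (v 0) (v 1) (v 2) (by rw [← hv']; exact hv) c (by rw [← conj.pow]; exact hc) with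
    ⟨h0, h1, h2⟩ | h | h
  · exact htriv (Or.inl (by rw [hv', h0, h1, h2]; ext i; fin_cases i <;> rfl))
  · exact htriv (Or.inr h)
  · obtain ⟨i, hi, he⟩ := h
    obtain ⟨t, ht, hte⟩ := tv_mem i hi
    have : CfsgLib.UGeom.utv conj v c hv hc = t := mat_inj (by rw [hm, hte, ← he, ← hv'])
    rw [this]; exact ht

theorem exists_pair (g : G) : ∃ M, IsPair g M := by
  have hg : g ∈ K := K_eq_top ▸ Subgroup.mem_top g
  induction hg using Subgroup.closure_induction with
  | mem y hy =>
    rcases hy with rfl | rfl
    · exact ⟨_, isPair_gA⟩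
    · exact ⟨_, isPair_gB⟩
  | one => exact ⟨1, isPair_one⟩
  | mul _ _ _ _ h1 h2 => exact ⟨_, isPair_mul h1.choose_spec h2.choose_spec⟩
  | inv y _ h =>
    refine ⟨h.choose ^ (orderOf y - 1), ?_⟩
    have : y⁻¹ = y ^ (orderOf y - 1) := by
      refine inv_eq_of_mul_eq_one_left ?_
      rw [← pow_succ, Nat.sub_add_cancel (orderOf_pos y), pow_orderOf_eq_one]
    rw [this]
    exact isPair_pow h.choose_spec _

/-- The representation. -/
noncomputable def psi : G →* GL (Fin 12) (ZMod 5) :=
  MonoidHom.mk' (fun g => (exists_pair g).choose) fun g h =>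
    isPair_unique (exists_pair (g * h)).choose_spec
      (isPair_mul (exists_pair g).choose_spec (exists_pair h).choose_spec)

theorem psi_gB : psi (wordEl wB) = uB := isPair_unique (exists_pair _).choose_spec isPair_gB

theorem r13_ok : decM Data.r13 * (decM Data.mB - 1) = 1 := by decide +kernel

end CfsgLib.U3Four
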